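import Mathlib

/-!
# Regular cycles (S3509): duality in groups of class two (helper867)

* `exists_dual` : `R` finite, `[R, R] ≤ ⟨z⟩ = Z(R)`, `z` of prime order; `ρ ∉ W ≥ ⟨z⟩`: some `u ∈ R` centralises `W`
  and not `ρ`;
* `Chart p z s R`, **`fusion`** : `v ∈ C(z)` commuting with no involution: `[v, u] ∈ ⟨z⟩` and `≠ 1` for some `u ∈ R`.
-/

set_option autoImplicit false
set_option linter.unusedSectionVars false

namespace Cfsg.Agent.H867.RC

open Subgroup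

section Dual

variable {R : Type*} [Group R] [Finite R]

theorem exists_dual {p : ℕ} (hp : p.Prime) {z : R} (hz1 : z ≠ 1) (hz : z ^ p = 1) (hzc : ∀ u, u * z = z * u)
    (hcomm : ∀ a b : R, a * b * a⁻¹ * b⁻¹ ∈ zpowers z) (hctr : ∀ c : R, (∀ u, u * c = c * u) → c ∈ zpowers z)
    (W : Subgroup R) (hzW : z ∈ W) {ρ : R} (hρ : ρ ∉ W) : ∃ u : R, (∀ w ∈ W, u * w = w * u) ∧ u * ρ ≠ ρ * u := by
  classical
  have hcen : ∀ c ∈ zpowers z, ∀ u, u * c = c * u := by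
    intro c hc u
    obtain ⟨k, rfl⟩ := mem_zpowers_iff.1 hc
    exact ((show Commute u z from hzc u).zpow_right k).eq
  have hN : (zpowers z).Normal := ⟨fun c hc g => by
    have h : g * c * g⁻¹ = c := by rw [hcen c hc g, mul_inv_cancel_right]
    rw [h]; exact hc⟩
  let _ : CommGroup (R ⧸ zpowers z) := { (inferInstance : Group (R ⧸ zpowers z)) with
    mul_comm := by
      intro a b
      obtain ⟨a, rfl⟩ := QuotientGroup.mk_surjective a
      obtain ⟨b, rfl⟩ := QuotientGroup.mk_surjective b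
      rw [← QuotientGroup.mk_mul, ← QuotientGroup.mk_mul, QuotientGroup.eq]
      have h := hcomm b⁻¹ a⁻¹
      have e : (a * b)⁻¹ * (b * a) = b⁻¹ * a⁻¹ * b⁻¹⁻¹ * a⁻¹⁻¹ := by group
      rw [e]; exact h }
  let _ : CommGroup (zpowers z) := { (inferInstance : Group (zpowers z)) with
    mul_comm := fun a b => Subtype.ext (hcen b b.2 a) }
  have : Finite (R ⧸ zpowers z) := inferInstance
  -- a faithful character of `⟨z⟩`
  obtain ⟨φ, hφ⟩ : ∃ φ : zpowers z →* ℂˣ, ∀ c, φ c = 1 → c = 1 := by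
    have : HasEnoughRootsOfUnity ℂ (Monoid.exponent (zpowers z)) := by
      have : NeZero (Monoid.exponent (zpowers z)) := ⟨Monoid.exponent_ne_zero_of_finite⟩
      infer_instance
    obtain ⟨φ, h⟩ := CommGroup.exists_apply_ne_one_of_hasEnoughRootsOfUnity (zpowers z) ℂ
      (a := ⟨z, mem_zpowers z⟩) (fun h => hz1 (congrArg Subtype.val h))
    refine ⟨φ, fun c hc => ?_⟩
    by_contra hc1
    apply h
    have hf : Fact p.Prime := ⟨hp⟩
    have hcard : Nat.card (zpowers z) = p := by rw [Nat.card_zpowers, orderOf_eq_prime hz hz1]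
    have h2 : (⟨z, mem_zpowers z⟩ : zpowers z) ∈ zpowers c := mem_zpowers_of_prime_card hcard hc1
    have h3 : zpowers c ≤ φ.ker := zpowers_le.2 hc
    exact h3 h2
  -- the characters of `R`
  let χ : R → (R →* ℂˣ) := fun u =>
    { toFun := fun r => φ ⟨u * r * u⁻¹ * r⁻¹, hcomm u r⟩
      map_one' := by
        have : (⟨u * 1 * u⁻¹ * 1⁻¹, hcomm u 1⟩ : zpowers z) = 1 := Subtype.ext (by simp)
        rw [this, map_one]
      map_mul' := fun r t => by
        rw [← map_mul]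
        congr 1
        apply Subtype.ext
        change u * (r * t) * u⁻¹ * (r * t)⁻¹ = (u * r * u⁻¹ * r⁻¹) * (u * t * u⁻¹ * t⁻¹)
        have h := hcen _ (hcomm u t) r
        calc u * (r * t) * u⁻¹ * (r * t)⁻¹ = (u * r * u⁻¹ * r⁻¹) * (r * (u * t * u⁻¹ * t⁻¹)) * r⁻¹ := by group
          _ = (u * r * u⁻¹ * r⁻¹) * (u * t * u⁻¹ * t⁻¹) := by rw [h]; group }
  have hχz : ∀ u, zpowers z ≤ (χ u).ker := by
    intro u
    rw [zpowers_le, MonoidHom.mem_ker]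
    change φ ⟨u * z * u⁻¹ * z⁻¹, hcomm u z⟩ = 1
    have : (⟨u * z * u⁻¹ * z⁻¹, hcomm u z⟩ : zpowers z) = 1 := Subtype.ext (by
      change u * z * u⁻¹ * z⁻¹ = 1
      rw [hzc u]; group)
    rw [this, map_one]
  have hχ1 : ∀ u r, χ u r = 1 → u * r = r * u := by
    intro u r h
    have h1 := hφ _ h
    have h2 : u * r * u⁻¹ * r⁻¹ = 1 := congrArg Subtype.val h1
    calc u * r = (u * r * u⁻¹ * r⁻¹) * (r * u) := by group
      _ = r * u := by rw [h2, one_mul]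
  let Φ : (R ⧸ zpowers z) → ((R ⧸ zpowers z) →* ℂˣ) := fun q =>
    QuotientGroup.lift (zpowers z) (χ q.out) (fun c hc => hχz _ hc)
  have hΦ : ∀ q (r : R), Φ q (r : R ⧸ zpowers z) = χ q.out r := fun q r => rfl
  have hinj : Function.Injective Φ := by
    intro a b hab
    have h1 : ∀ r, χ a.out r = χ b.out r := fun r => by rw [← hΦ, ← hΦ, hab]
    have h2 : (a.out)⁻¹ * b.out ∈ zpowers z := by
      apply hctr
      intro r
      have h3 : φ ⟨a.out * r * a.out⁻¹ * r⁻¹, hcomm _ r⟩ = φ ⟨b.out * r * b.out⁻¹ * r⁻¹, hcomm _ r⟩ := h1 r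
      have h4 : φ (⟨a.out * r * a.out⁻¹ * r⁻¹, hcomm _ r⟩ * (⟨b.out * r * b.out⁻¹ * r⁻¹, hcomm _ r⟩)⁻¹) = 1 := by
        rw [map_mul, map_inv, h3, mul_inv_cancel]
      have h5 := mul_inv_eq_one.1 (hφ _ h4)
      have h6 : a.out * r * a.out⁻¹ * r⁻¹ = b.out * r * b.out⁻¹ * r⁻¹ := congrArg Subtype.val h5
      have h7 : a.out * r * a.out⁻¹ = b.out * r * b.out⁻¹ := mul_right_cancel h6
      calc r * (a.out⁻¹ * b.out) = a.out⁻¹ * (a.out * r * a.out⁻¹) * b.out := by group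
        _ = a.out⁻¹ * (b.out * r * b.out⁻¹) * b.out := by rw [h7]
        _ = a.out⁻¹ * b.out * r := by group
    rw [← QuotientGroup.out_eq' a, ← QuotientGroup.out_eq' b]
    exact QuotientGroup.eq.2 h2
  have : HasEnoughRootsOfUnity ℂ (Monoid.exponent (R ⧸ zpowers z)) := by
    have : NeZero (Monoid.exponent (R ⧸ zpowers z)) := ⟨Monoid.exponent_ne_zero_of_finite⟩
    infer_instance
  have hcard := CommGroup.card_monoidHom_of_hasEnoughRootsOfUnity (R ⧸ zpowers z) ℂ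
  have hfin : Finite ((R ⧸ zpowers z) →* ℂˣ) := by
    apply Nat.finite_of_card_ne_zero
    rw [hcard]
    exact Nat.card_pos.ne'
  have hsurj : Function.Surjective Φ := (hinj.bijective_of_nat_card_le hcard.le).2
  -- a character trivial on `W`
  let W' : Subgroup (R ⧸ zpowers z) := W.map (QuotientGroup.mk' (zpowers z))
  have hρ' : ((ρ : R ⧸ zpowers z) : (R ⧸ zpowers z) ⧸ W') ≠ 1 := by
    intro h
    rw [QuotientGroup.eq_one_iff] at h
    obtain ⟨w, hw, hwρ⟩ := h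
    have h1 : w⁻¹ * ρ ∈ zpowers z := QuotientGroup.eq.1 hwρ
    apply hρ
    have h2 := mul_mem hw ((zpowers_le.2 hzW) h1)
    rwa [mul_inv_cancel_left] at h2
  have : HasEnoughRootsOfUnity ℂ (Monoid.exponent ((R ⧸ zpowers z) ⧸ W')) := by
    have : NeZero (Monoid.exponent ((R ⧸ zpowers z) ⧸ W')) := ⟨Monoid.exponent_ne_zero_of_finite⟩
    infer_instance
  obtain ⟨ψ, hψ⟩ := CommGroup.exists_apply_ne_one_of_hasEnoughRootsOfUnity ((R ⧸ zpowers z) ⧸ W') ℂ hρ'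
  obtain ⟨q, hq⟩ := hsurj (ψ.comp (QuotientGroup.mk' W'))
  refine ⟨q.out, fun w hw => ?_, fun h => hψ ?_⟩
  · apply hχ1
    rw [← hΦ, hq]
    change ψ (((w : R ⧸ zpowers z) : (R ⧸ zpowers z) ⧸ W')) = 1
    have : (((w : R ⧸ zpowers z) : (R ⧸ zpowers z) ⧸ W')) = 1 := by
      rw [QuotientGroup.eq_one_iff]
      exact ⟨w, hw, rfl⟩
    rw [this, map_one]
  · have h1 : χ q.out ρ = ψ (((ρ : R ⧸ zpowers z) : (R ⧸ zpowers z) ⧸ W')) := by
      rw [← hΦ, hq]; rfl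
    rw [← h1]
    change φ ⟨q.out * ρ * q.out⁻¹ * ρ⁻¹, hcomm _ _⟩ = 1
    have : (⟨q.out * ρ * q.out⁻¹ * ρ⁻¹, hcomm q.out ρ⟩ : zpowers z) = 1 := Subtype.ext (by
      change q.out * ρ * q.out⁻¹ * ρ⁻¹ = 1
      rw [h]; group)
    rw [this, map_one]

end Dual

section Fusion

variable {G : Type*} [Group G]

/-- `g` commutes with an involution -/
def Ev (g : G) : Prop := ∃ t : G, t ≠ 1 ∧ t * t = 1 ∧ t * g = g * t

/-- `R = O_p(C(z))` of class two and exponent `p` with centre `⟨z⟩`, the involution `s` inverts `R/⟨z⟩` and is central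
modulo `R` -/
structure Chart (p : ℕ) (z s : G) (R : Subgroup G) : Prop where
  z1 : z ≠ 1
  zR : z ∈ R
  exp : ∀ r ∈ R, r ^ p = 1
  cen : ∀ r ∈ R, r * z = z * r
  comm : ∀ a ∈ R, ∀ b ∈ R, a * b * a⁻¹ * b⁻¹ ∈ zpowers z
  ctr : ∀ c ∈ R, (∀ u ∈ R, u * c = c * u) → c ∈ zpowers z
  nor : ∀ g, g * z = z * g → ∀ r ∈ R, g * r * g⁻¹ ∈ R
  s1 : s ≠ 1
  s2 : s * s = 1
  sz : s * z = z * s
  inv : ∀ r ∈ R, ∃ c ∈ zpowers z, s * r * s⁻¹ = r⁻¹ * c
  cent : ∀ g, g * z = z * g → ∃ r ∈ R, s * g * s⁻¹ = g * r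

namespace Chart

variable {p : ℕ} {z s : G} {R : Subgroup G} (C : Chart p z s R)

include C

theorem zp : z ^ p = 1 := C.exp z C.zR

/-- elements commuting with `z` commute with its powers -/
theorem comz {g : G} (hg : g * z = z * g) {c : G} (hc : c ∈ zpowers z) : g * c = c * g := by
  obtain ⟨k, rfl⟩ := mem_zpowers_iff.1 hc
  exact ((show Commute g z from hg).zpow_right k).eq

theorem cR {r : G} (hr : r ∈ R) {c : G} (hc : c ∈ zpowers z) : r * c = c * r := C.comz (C.cen r hr) hc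

theorem zle : zpowers z ≤ R := zpowers_le.2 C.zR

theorem root (hp2 : Odd p) {c : G} (hc : c ∈ zpowers z) : ∃ d ∈ zpowers z, d * d = c := by
  obtain ⟨m, hm⟩ := hp2
  refine ⟨c ^ (m + 1), pow_mem hc _, ?_⟩
  rw [← pow_add]
  have h : c ^ p = 1 := C.exp c (C.zle hc)
  have e : m + 1 + (m + 1) = p + 1 := by omega
  rw [e, pow_succ, h, one_mul]

theorem sq (hp2 : Odd p) {c : G} (hc : c ∈ zpowers z) (h : c * c = 1) : c = 1 := by
  obtain ⟨m, hm⟩ := hp2
  have h1 : c ^ p = 1 := C.exp c (C.zle hc)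
  rw [hm, pow_succ, pow_mul, pow_two, h, one_pow, one_mul] at h1
  exact h1

theorem ns : s ∉ R ∨ ¬ Odd p := by
  by_cases hp : Odd p
  · left
    intro h
    obtain ⟨m, hm⟩ := hp
    have h1 : s ^ p = 1 := C.exp s h
    rw [hm, pow_succ, pow_mul, pow_two, C.s2, one_pow, one_mul] at h1
    exact C.s1 h1
  · exact Or.inr hp

/-- **fusion** -/
theorem fusion [Finite R] (hp : p.Prime) (hp2 : Odd p) {v : G} (hv : v * z = z * v) (hne : ¬ Ev v) :
    ∃ u ∈ R, ∃ c ∈ zpowers z, c ≠ 1 ∧ v * u * v⁻¹ * u⁻¹ = c := by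
  classical
  obtain ⟨r0, hr0, hs⟩ := C.cent v hv
  have hvi : v⁻¹ * z = z * v⁻¹ := by
    calc v⁻¹ * z = v⁻¹ * (z * v) * v⁻¹ := by group
      _ = z * v⁻¹ := by rw [← hv]; group
  have hvR : ∀ r ∈ R, v⁻¹ * r * v ∈ R := fun r hr => by
    have := C.nor v⁻¹ hvi r hr
    rwa [inv_inv] at this
  let z' : R := ⟨z, C.zR⟩
  have hzz : ∀ c : R, c ∈ zpowers z' ↔ (c : G) ∈ zpowers z := by
    intro c
    constructor
    · rintro ⟨k, rfl⟩
      exact ⟨k, by simp [z']⟩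
    · rintro ⟨k, hk⟩
      exact ⟨k, Subtype.ext (by simpa [z'] using hk)⟩
  have hcen' : ∀ u : R, u * z' = z' * u := fun u => Subtype.ext (C.cen u u.2)
  have hcomm' : ∀ a b : R, a * b * a⁻¹ * b⁻¹ ∈ zpowers z' := fun a b => (hzz _).2 (C.comm a a.2 b b.2)
  have hctr' : ∀ c : R, (∀ u, u * c = c * u) → c ∈ zpowers z' := fun c h =>
    (hzz _).2 (C.ctr c c.2 fun u hu => congrArg Subtype.val (h ⟨u, hu⟩))
  have hcenz : ∀ c ∈ zpowers z', ∀ u, u * c = c * u := by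
    intro c hc u
    obtain ⟨k, rfl⟩ := mem_zpowers_iff.1 hc
    exact ((show Commute u z' from hcen' u).zpow_right k).eq
  have hN : (zpowers z').Normal := ⟨fun c hc g => by
    have h : g * c * g⁻¹ = c := by rw [hcenz c hc g, mul_inv_cancel_right]
    rw [h]; exact hc⟩
  let _ : CommGroup (R ⧸ zpowers z') := { (inferInstance : Group (R ⧸ zpowers z')) with
    mul_comm := by
      intro a b
      obtain ⟨a, rfl⟩ := QuotientGroup.mk_surjective a
      obtain ⟨b, rfl⟩ := QuotientGroup.mk_surjective b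
      rw [← QuotientGroup.mk_mul, ← QuotientGroup.mk_mul, QuotientGroup.eq]
      have h := hcomm' b⁻¹ a⁻¹
      have e : (a * b)⁻¹ * (b * a) = b⁻¹ * a⁻¹ * b⁻¹⁻¹ * a⁻¹⁻¹ := by group
      rw [e]; exact h }
  let α : R →* R :=
    { toFun := fun r => ⟨v⁻¹ * r * v, hvR r r.2⟩
      map_one' := Subtype.ext (by simp)
      map_mul' := fun a b => Subtype.ext (by
        change v⁻¹ * (a * b) * v = (v⁻¹ * a * v) * (v⁻¹ * b * v)
        group) }
  let θ : R →* R ⧸ zpowers z' := ((QuotientGroup.mk' (zpowers z')).comp α) * (QuotientGroup.mk' (zpowers z'))⁻¹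
  have hθ : ∀ r : R, θ r = ((α r * r⁻¹ : R) : R ⧸ zpowers z') := fun r => rfl
  let W : Subgroup R := θ.range.comap (QuotientGroup.mk' (zpowers z'))
  have hzW : z' ∈ W := by
    change ((z' : R) : R ⧸ zpowers z') ∈ θ.range
    have : ((z' : R) : R ⧸ zpowers z') = 1 := (QuotientGroup.eq_one_iff _).2 (mem_zpowers z')
    rw [this]
    exact one_mem _
  have hρ : (⟨r0, hr0⟩ : R) ∉ W := by
    rintro ⟨t, ht⟩
    rw [hθ] at ht
    have h1 : (α t * t⁻¹)⁻¹ * ⟨r0, hr0⟩ ∈ zpowers z' := QuotientGroup.eq.1 ht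
    have h2 : ((v⁻¹ * t * v) * (t : G)⁻¹)⁻¹ * r0 ∈ zpowers z := (hzz _).1 h1
    obtain ⟨c, hc, hcr⟩ : ∃ c ∈ zpowers z, r0 = v⁻¹ * t * v * (t : G)⁻¹ * c :=
      ⟨_, h2, by group⟩
    -- the involution
    obtain ⟨c1, hc1, hst⟩ := C.inv (t : G)⁻¹ (inv_mem t.2)
    obtain ⟨d, hd, hdd⟩ := C.root hp2 (inv_mem hc1)
    have hsd : s * d = d * s := C.comz C.sz hd
    have htd : (t : G) * d = d * t := C.cR t.2 hd
    have htid : (t : G)⁻¹ * d = d * (t : G)⁻¹ := C.cR (inv_mem t.2) hd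
    have hs' : s⁻¹ = s := inv_eq_of_mul_eq_one_left C.s2
    rw [hs', inv_inv] at hst
    rw [hs'] at hs
    have hvd : v * d = d * v := C.comz hv hd
    have hvc : v * c = c * v := C.comz hv hc
    have htc : (t : G)⁻¹ * c = c * (t : G)⁻¹ := C.cR (inv_mem t.2) hc
    let τ : G := (t : G)⁻¹ * s * d
    have hτ1 : τ ≠ 1 := by
      intro h
      rcases C.ns with hn | hn
      · apply hn
        have : s = t * d⁻¹ := by
          calc s = t * ((t : G)⁻¹ * s * d) * d⁻¹ := by group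
            _ = t * d⁻¹ := by rw [show (t : G)⁻¹ * s * d = 1 from h, mul_one]
        rw [this]
        exact mul_mem t.2 (inv_mem (C.zle hd))
      · exact hn hp2
    have hτ2 : τ * τ = 1 := by
      change (t : G)⁻¹ * s * d * ((t : G)⁻¹ * s * d) = 1
      have h3 : (t : G)⁻¹ * s * d * ((t : G)⁻¹ * s * d) = (t : G)⁻¹ * (s * (t : G)⁻¹ * s) * (d * d) := by
        calc (t : G)⁻¹ * s * d * ((t : G)⁻¹ * s * d) = (t : G)⁻¹ * s * (d * (t : G)⁻¹) * s * d := by group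
          _ = (t : G)⁻¹ * s * (t : G)⁻¹ * (d * s) * d := by rw [← htid]; group
          _ = (t : G)⁻¹ * (s * (t : G)⁻¹ * s) * (d * d) := by rw [← hsd]; group
      rw [h3, hst, hdd]
      group
    have hτv : τ * v * τ⁻¹ = v * c := by
      have hτi : τ⁻¹ = τ := inv_eq_of_mul_eq_one_left hτ2
      have hτi' : τ⁻¹ = d⁻¹ * s * t := by
        change ((t : G)⁻¹ * s * d)⁻¹ = _
        rw [mul_inv_rev, mul_inv_rev, inv_inv, hs']
        group
      rw [hτi']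
      change (t : G)⁻¹ * s * d * v * (d⁻¹ * s * t) = v * c
      calc (t : G)⁻¹ * s * d * v * (d⁻¹ * s * t) = (t : G)⁻¹ * s * (d * v) * d⁻¹ * s * t := by group
        _ = (t : G)⁻¹ * (s * v * s) * t := by rw [← hvd]; group
        _ = (t : G)⁻¹ * (v * (v⁻¹ * t * v * (t : G)⁻¹ * c)) * t := by rw [hs, hcr]
        _ = v * ((t : G)⁻¹ * c) * t := by group
        _ = v * c := by rw [htc]; group
    -- `c = 1`
    have hτz : τ * z = z * τ := by
      change (t : G)⁻¹ * s * d * z = z * ((t : G)⁻¹ * s * d)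
      have h4 : d * z = z * d := (C.cen d (C.zle hd))
      have h5 : (t : G)⁻¹ * z = z * (t : G)⁻¹ := C.cen _ (inv_mem t.2)
      calc (t : G)⁻¹ * s * d * z = (t : G)⁻¹ * s * (d * z) := by group
        _ = (t : G)⁻¹ * (s * z) * d := by rw [h4]; group
        _ = ((t : G)⁻¹ * z) * s * d := by rw [C.sz]; group
        _ = z * ((t : G)⁻¹ * s * d) := by rw [h5]; group
    have hτc : τ * c = c * τ := C.comz hτz hc
    have hcc : c * c = 1 := by
      have h6 : τ * (τ * v * τ⁻¹) * τ⁻¹ = v := by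
        calc τ * (τ * v * τ⁻¹) * τ⁻¹ = (τ * τ) * v * (τ * τ)⁻¹ := by group
          _ = v := by rw [hτ2]; group
      rw [hτv] at h6
      have h7 : τ * (v * c) * τ⁻¹ = v * c * c := by
        calc τ * (v * c) * τ⁻¹ = (τ * v * τ⁻¹) * (τ * c * τ⁻¹) := by group
          _ = (v * c) * c := by rw [hτv, hτc]; group
      rw [h7, mul_assoc] at h6
      exact mul_left_cancel (a := v) (by rw [h6, mul_one])
    have hc0 := C.sq hp2 hc hcc
    apply hne
    refine ⟨τ, hτ1, hτ2, ?_⟩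
    calc τ * v = (τ * v * τ⁻¹) * τ := by group
      _ = v * τ := by rw [hτv, hc0, mul_one]
  obtain ⟨u, huW, hu⟩ := exists_dual (R := R) hp (z := z') (fun h => C.z1 (congrArg Subtype.val h))
    (Subtype.ext (by simpa [z'] using C.zp)) hcen' hcomm' hctr' W hzW hρ
  have huR := u.2
  -- `u` commutes with the `v⁻¹ t v t⁻¹`
  have h1 : ∀ t ∈ R, (u : G) * (v⁻¹ * t * v * t⁻¹) = v⁻¹ * t * v * t⁻¹ * u := by
    intro t ht
    have h2 : (α ⟨t, ht⟩ * (⟨t, ht⟩ : R)⁻¹) ∈ W := ⟨⟨t, ht⟩, hθ _⟩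
    exact congrArg Subtype.val (huW _ h2)
  have hmem : (u : G)⁻¹ * (v * u * v⁻¹) ∈ zpowers z := by
    have hvu : v * u * v⁻¹ ∈ R := C.nor v hv u huR
    refine C.ctr _ (mul_mem (inv_mem huR) hvu) fun t ht => ?_
    -- w := v⁻¹ t v t⁻¹
    have h2 := h1 t ht
    have hc2 := C.comm u huR t ht
    have hc1 := C.comm u huR (v⁻¹ * t * v) (hvR t ht)
    have hwR : v⁻¹ * t * v * t⁻¹ ∈ R := mul_mem (hvR t ht) (inv_mem ht)
    have e1 : (u : G) * (v⁻¹ * t * v) * (u : G)⁻¹ * (v⁻¹ * t * v)⁻¹ = u * t * (u : G)⁻¹ * t⁻¹ := by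
      have h3 := C.cR hwR hc2
      calc (u : G) * (v⁻¹ * t * v) * (u : G)⁻¹ * (v⁻¹ * t * v)⁻¹
          = (u * (v⁻¹ * t * v * t⁻¹)) * t * (u : G)⁻¹ * (v⁻¹ * t * v)⁻¹ := by group
        _ = (v⁻¹ * t * v * t⁻¹ * (u * t * (u : G)⁻¹ * t⁻¹)) * (v⁻¹ * t * v * t⁻¹)⁻¹ := by rw [h2]; group
        _ = u * t * (u : G)⁻¹ * t⁻¹ := by rw [h3]; group
    have e2 : v * (u * (v⁻¹ * t * v) * (u : G)⁻¹ * (v⁻¹ * t * v)⁻¹) * v⁻¹ =
        u * (v⁻¹ * t * v) * (u : G)⁻¹ * (v⁻¹ * t * v)⁻¹ := by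
      rw [C.comz hv hc1]; group
    have e3 : (v * u * v⁻¹) * t * (v * u * v⁻¹)⁻¹ * t⁻¹ = u * t * (u : G)⁻¹ * t⁻¹ := by
      rw [← e1, ← e2]; group
    have e4 : (v * u * v⁻¹) * t * (v * u * v⁻¹)⁻¹ = u * t * (u : G)⁻¹ := mul_right_cancel e3
    calc t * ((u : G)⁻¹ * (v * u * v⁻¹)) = (u : G)⁻¹ * (u * t * (u : G)⁻¹) * (v * u * v⁻¹) := by group
      _ = (u : G)⁻¹ * ((v * u * v⁻¹) * t * (v * u * v⁻¹)⁻¹) * (v * u * v⁻¹) := by rw [e4]
      _ = (u : G)⁻¹ * (v * u * v⁻¹) * t := by group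
  have hmem' : v * u * v⁻¹ * (u : G)⁻¹ ∈ zpowers z := by
    have h2 := C.cR huR hmem
    have h3 : v * u * v⁻¹ * (u : G)⁻¹ = u * ((u : G)⁻¹ * (v * u * v⁻¹)) * (u : G)⁻¹ := by group
    rw [h3, h2, mul_inv_cancel_right]
    exact hmem
  refine ⟨u, huR, _, hmem', fun h => hu ?_, rfl⟩
  -- `v u = u v` is impossible
  have hvu : v * u = u * v := by
    calc v * u = (v * u * v⁻¹ * (u : G)⁻¹) * (u * v) := by group
      _ = u * v := by rw [h, one_mul]
  obtain ⟨c, hc, hsu⟩ := C.inv u huR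
  have e1 : (v * r0) * ((u : G)⁻¹ * c) = ((u : G)⁻¹ * c) * (v * r0) := by
    rw [← hs, ← hsu]
    calc s * v * s⁻¹ * (s * u * s⁻¹) = s * (v * u) * s⁻¹ := by group
      _ = s * u * s⁻¹ * (s * v * s⁻¹) := by rw [hvu]; group
  have hvc : v * c = c * v := C.comz hv hc
  have hrc : r0 * c = c * r0 := C.cR hr0 hc
  have huc : (u : G)⁻¹ * c = c * (u : G)⁻¹ := C.cR (inv_mem huR) hc
  have huv : (u : G)⁻¹ * v = v * (u : G)⁻¹ := by
    calc (u : G)⁻¹ * v = (u : G)⁻¹ * (v * u) * (u : G)⁻¹ := by group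
      _ = v * (u : G)⁻¹ := by rw [hvu]; group
  have e2 : v * r0 * (u : G)⁻¹ = v * (u : G)⁻¹ * r0 := by
    apply mul_right_cancel (b := c)
    calc v * r0 * (u : G)⁻¹ * c = (v * r0) * ((u : G)⁻¹ * c) := by group
      _ = (u : G)⁻¹ * (c * v) * r0 := by rw [e1]; group
      _ = (u : G)⁻¹ * v * (c * r0) := by rw [← hvc]; group
      _ = v * (u : G)⁻¹ * r0 * c := by rw [← hrc, huv]; group
  have e3 : r0 * (u : G)⁻¹ = (u : G)⁻¹ * r0 := by
    apply mul_left_cancel (a := v)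
    rw [← mul_assoc, e2, mul_assoc]
  apply Subtype.ext
  change (u : G) * r0 = r0 * u
  calc (u : G) * r0 = u * (r0 * (u : G)⁻¹) * u := by group
    _ = r0 * u := by rw [e3]; group

end Chart

end Fusion

end Cfsg.Agent.H867.RC
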