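import Cfsg.Agent.H867.RC.Spor

/-!
# Regular cycles (S3509): pairs of elements, rank two (helper867)

* `CP Ω x y` : every point is fixed by `x` or by `y`;
* `clo x y` : the group generated by the conjugates of `y` under `C(x)`; `cp_clo`;
* `Ch t` : some `2`-group `Q` with `t` in its centre, normalised by `C(t)`, with `t ∈ [Q, g]` for all `g ∈ C(t)` of odd prime
  order;
* **`rankTwo`** : `⟨z, d⟩` elementary of order `p²`, commuting with a `t` with `Ch t`: some point is fixed by no nontrivial element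
  of `⟨z, d⟩`.
-/

set_option autoImplicit false

namespace Cfsg.Agent.H867.RC

open MulAction Subgroup

section Pair

variable {G : Type*} [Group G] (Ω : Type*) [MulAction G Ω]

/-- every point is fixed by `x` or by `y` -/
def CP (x y : G) : Prop := ∀ ω : Ω, x • ω = ω ∨ y • ω = ω

variable {Ω}

/-- the group generated by the conjugates of `y` under `C(x)` -/
def clo (x y : G) : Subgroup G := closure {z | ∃ c, c * x = x * c ∧ z = c * y * c⁻¹}

theorem clo_self (x y : G) : y ∈ clo x y := subset_closure ⟨1, by simp, by simp⟩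

theorem clo_gen {x y c : G} (hc : c * x = x * c) : c * y * c⁻¹ ∈ clo x y := subset_closure ⟨c, hc, rfl⟩

theorem clo_comm {x y : G} (hxy : x * y = y * x) {k : G} (hk : k ∈ clo x y) : x * k = k * x := by
  have h : clo x y ≤ centralizer {x} := by
    rw [clo, closure_le]
    rintro _ ⟨c, hc, rfl⟩
    change c * y * c⁻¹ ∈ centralizer {x}
    rw [mem_centralizer_singleton_iff]
    have hc' : c⁻¹ * x = x * c⁻¹ := by
      calc c⁻¹ * x = c⁻¹ * (x * c) * c⁻¹ := by group
        _ = x * c⁻¹ := by rw [← hc]; group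
    calc c * y * c⁻¹ * x = c * y * (c⁻¹ * x) := by group
      _ = c * (y * x) * c⁻¹ := by rw [hc']; group
      _ = (c * x) * y * c⁻¹ := by rw [← hxy]; group
      _ = x * (c * y * c⁻¹) := by rw [hc]; group
  have h1 := h hk
  rw [mem_centralizer_singleton_iff] at h1
  exact h1.symm

theorem clo_conj {x y c : G} (hc : c * x = x * c) {k : G} (hk : k ∈ clo x y) : c * k * c⁻¹ ∈ clo x y := by
  unfold clo at hk
  refine closure_induction (p := fun k _ => c * k * c⁻¹ ∈ clo x y) ?_ ?_ ?_ ?_ hk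
  · rintro _ ⟨d, hd, rfl⟩
    have e : c * (d * y * d⁻¹) * c⁻¹ = (c * d) * y * (c * d)⁻¹ := by group
    rw [e]
    apply clo_gen
    rw [mul_assoc, hd, ← mul_assoc, hc, mul_assoc]
  · simp [one_mem]
  · intro a b _ _ ha hb
    have e : c * (a * b) * c⁻¹ = (c * a * c⁻¹) * (c * b * c⁻¹) := by group
    rw [e]
    exact mul_mem ha hb
  · intro a _ ha
    have e : c * a⁻¹ * c⁻¹ = (c * a * c⁻¹)⁻¹ := by group
    rw [e]
    exact inv_mem ha

theorem CP.symm {x y : G} (h : CP Ω x y) : CP Ω y x := fun ω => (h ω).symm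

theorem CP.clo {x y : G} (h : CP Ω x y) {k : G} (hk : k ∈ clo x y) : CP Ω x k := by
  intro ω
  by_cases hx : x • ω = ω
  · exact Or.inl hx
  right
  have h1 : RC.clo x y ≤ stabilizer G ω := by
    rw [RC.clo, closure_le]
    rintro _ ⟨c, hc, rfl⟩
    change c * y * c⁻¹ ∈ stabilizer G ω
    rw [mem_stabilizer_iff, mul_smul, mul_smul]
    rcases h (c⁻¹ • ω) with h2 | h2
    · exfalso
      apply hx
      have h3 : c • x • c⁻¹ • ω = ω := by rw [h2, smul_inv_smul]
      rw [smul_smul, hc, mul_smul, smul_inv_smul] at h3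
      exact h3
    · rw [h2, smul_inv_smul]
  exact h1 hk

theorem CP.conj {x y : G} (h : CP Ω x y) (c : G) : CP Ω (c * x * c⁻¹) (c * y * c⁻¹) := by
  intro ω
  rcases h (c⁻¹ • ω) with h2 | h2
  · left
    rw [mul_smul, mul_smul, h2, smul_inv_smul]
  · right
    rw [mul_smul, mul_smul, h2, smul_inv_smul]

/-- involutions of type `2_+^{1+2n}` -/
def Ch (t : G) : Prop := t ≠ 1 ∧ ∃ Q : Subgroup G, IsPGroup 2 Q ∧ (∀ q ∈ Q, q * t = t * q) ∧
  (∀ g, g * t = t * g → g ∈ normalizer (Q : Set G)) ∧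
  ∀ (r : ℕ) (g : G), r.Prime → r ≠ 2 → g ^ r = 1 → g ≠ 1 → g * t = t * g → t ∈ Cm Q g

end Pair

section RankTwo

variable {G Ω : Type*} [Group G] [MulAction G Ω]

/-- an element normalising `Q` and fixing a point of the orbit maps the orbit to itself -/
theorem smul_mem_orbit {Q : Subgroup G} {ω : Ω} {g : G} (hg : g ∈ normalizer (Q : Set G)) {w : Ω} (hw : w ∈ orbit Q ω)
    (hgw : g • w = w) {v : Ω} (hv : v ∈ orbit Q ω) : g • v ∈ orbit Q ω := by
  rw [← orbit_eq_iff.2 hw] at hv ⊢
  obtain ⟨q, rfl⟩ := hv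
  refine ⟨⟨g * q * g⁻¹, (mem_normalizer_iff.1 hg q).1 q.2⟩, ?_⟩
  change (g * q * g⁻¹) • w = g • (q : G) • w
  have h : g⁻¹ • w = w := by rw [inv_smul_eq_iff, hgw]
  rw [mul_smul, mul_smul, h]

theorem le_stab_of_triv {Q : Subgroup G} {ω : Ω} {g : G} (h : ∀ w ∈ orbit Q ω, g • w = w) : Cm Q g ≤ stabilizer G ω := by
  rw [Cm, closure_le]
  rintro _ ⟨u, hu, rfl⟩
  have h0 : g • ω = ω := h ω (mem_orbit_self ω)
  have h4 := h ((u⁻¹ : G) • ω) ⟨⟨u⁻¹, inv_mem hu⟩, rfl⟩
  have h5 : u * g * u⁻¹ ∈ stabilizer G ω := by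
    rw [mem_stabilizer_iff, mul_smul, mul_smul, h4, smul_inv_smul]
  exact mul_mem h5 (inv_mem (show g ∈ stabilizer G ω from h0))

theorem p_lt_two_pow {p : ℕ} (hp : p.Prime) (hp2 : p ≠ 2) : p + 1 ≤ 2 ^ Cfsg.Agent.H393.RC.od 2 p := by
  have hf : Fact p.Prime := ⟨hp⟩
  have hpos := Cfsg.Agent.H393.RC.od_pos Nat.prime_two hp hp2
  have h1 : ((2 : ℕ) : ZMod p) ^ Cfsg.Agent.H393.RC.od 2 p = 1 := pow_orderOf_eq_one _
  have h2 : p ∣ 2 ^ Cfsg.Agent.H393.RC.od 2 p - 1 := by
    rw [← ZMod.natCast_eq_zero_iff, Nat.cast_sub Nat.one_le_two_pow]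
    push_cast at h1 ⊢
    rw [h1, sub_self]
  have h3 : 1 < 2 ^ Cfsg.Agent.H393.RC.od 2 p := Nat.one_lt_two_pow (by omega)
  have h4 := Nat.le_of_dvd (by omega) h2
  omega

/-- **rank two** -/
theorem rankTwo [Finite G] (hf : ∀ g : G, (∀ ω : Ω, g • ω = ω) → g = 1) {p : ℕ} (hp : p.Prime) (hp2 : p ≠ 2) {z d : G}
    (hz : z ^ p = 1) (hz1 : z ≠ 1) (hd : d ^ p = 1) (hdz : d ∉ zpowers z) (hc : d * z = z * d) {t : G} (ht : Ch t)
    (htz : z * t = t * z) (htd : d * t = t * d)
    (hcov : ∀ ω : Ω, z • ω = ω ∨ ∃ c ∈ zpowers z, (d * c) • ω = ω) : False := by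
  classical
  have hpf : Fact p.Prime := ⟨hp⟩
  obtain ⟨ht1, Q, hQ, hQt, hQn, hQc⟩ := ht
  obtain ⟨ω, hω⟩ : ∃ ω : Ω, t • ω ≠ ω := by
    by_contra h
    push Not at h
    exact ht1 (hf t h)
  have hcardz : Nat.card (zpowers z) = p := by rw [Nat.card_zpowers, orderOf_eq_prime hz hz1]
  let ι := Option (zpowers z)
  let g : ι → G := fun i => i.elim z fun c => d * c
  have : Fintype ι := Fintype.ofFinite ι
  have hι : Nat.card ι = p + 1 := by
    have := Fintype.ofFinite (zpowers z)
    rw [Nat.card_eq_fintype_card, ← Nat.card_eq_fintype_card, Finite.card_option, hcardz]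
  have hcz : ∀ c ∈ zpowers z, d * c = c * d := by
    intro c hc'
    obtain ⟨k, rfl⟩ := mem_zpowers_iff.1 hc'
    exact ((show Commute d z from hc).zpow_right k).eq
  have htc : ∀ c ∈ zpowers z, c * t = t * c := by
    intro c hc'
    obtain ⟨k, rfl⟩ := mem_zpowers_iff.1 hc'
    exact ((show Commute z t from htz).zpow_left k).eq
  have hcp : ∀ c ∈ zpowers z, c ^ p = 1 := by
    intro c hc'
    obtain ⟨k, rfl⟩ := mem_zpowers_iff.1 hc'
    rw [← zpow_natCast, ← zpow_mul, mul_comm, zpow_mul, zpow_natCast, hz, one_zpow]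
  have hgp : ∀ i, g i ^ p = 1 := by
    rintro (_ | ⟨c, hc'⟩)
    · exact hz
    · change (d * c) ^ p = 1
      rw [(show Commute d c from hcz c hc').mul_pow, hd, hcp c hc', one_mul]
  have hg1 : ∀ i, g i ≠ 1 := by
    rintro (_ | ⟨c, hc'⟩)
    · exact hz1
    · intro h
      apply hdz
      change d * c = 1 at h
      rw [eq_inv_of_mul_eq_one_left h]
      exact inv_mem hc'
  have hgt : ∀ i, g i * t = t * g i := by
    rintro (_ | ⟨c, hc'⟩)
    · exact htz
    · change d * c * t = t * (d * c)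
      rw [mul_assoc, htc c hc', ← mul_assoc, htd, mul_assoc]
  have hgn : ∀ i, g i ∈ normalizer (Q : Set G) := fun i => hQn _ (hgt i)
  have hnt : ∀ i, ∃ w' ∈ orbit Q ω, g i • w' ≠ w' := by
    intro i
    by_contra h
    push Not at h
    exact hω (le_stab_of_triv h (hQc p (g i) hp hp2 (hgp i) (hg1 i) (hgt i)))
  have hcov' : ∀ w : Ω, ∃ i, g i • w = w := by
    intro w
    rcases hcov w with h | ⟨c, hc', h⟩
    · exact ⟨none, h⟩
    · exact ⟨some ⟨c, hc'⟩, h⟩
  have hfin : Finite (orbit Q ω) := Set.finite_range _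
  let F : ι → Type _ := fun i => {w' : Ω // w' ∈ orbit Q ω ∧ g i • w' = w'}
  have hFfin : ∀ i, Finite (F i) := fun i =>
    Finite.of_injective (fun v : F i => (⟨v.1, v.2.1⟩ : orbit Q ω)) fun a b hab =>
      Subtype.ext (congrArg (fun u : orbit Q ω => (u : Ω)) hab)
  obtain ⟨b, hb⟩ : ∃ b, Nat.card (orbit Q ω) = 2 ^ b := hQ.card_orbit ω
  have hpow := p_lt_two_pow hp hp2
  -- the bound
  have hbd : ∀ i, (p + 1) * Nat.card (F i) ≤ Nat.card (orbit Q ω) := by
    intro i
    have h1 := Cfsg.Agent.H393.RC.card_fix_le Nat.prime_two hQ hp (hgp i) (hgn i) (fun h => absurd h hp2) (hnt i)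
    rw [if_neg hp2] at h1
    have h2 : (0 : ℚ) < 2 ^ Cfsg.Agent.H393.RC.od 2 p := by positivity
    have h3 : ((Nat.card (F i) : ℕ) : ℚ) * 2 ^ Cfsg.Agent.H393.RC.od 2 p ≤ Nat.card (orbit Q ω) := by
      have h4 := mul_le_mul_of_nonneg_right h1 h2.le
      rw [mul_assoc, ← mul_pow] at h4
      norm_num at h4
      exact_mod_cast h4
    have h5 : Nat.card (F i) * 2 ^ Cfsg.Agent.H393.RC.od 2 p ≤ Nat.card (orbit Q ω) := by exact_mod_cast h3
    calc (p + 1) * Nat.card (F i) ≤ 2 ^ Cfsg.Agent.H393.RC.od 2 p * Nat.card (F i) := Nat.mul_le_mul_right _ hpow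
      _ ≤ Nat.card (orbit Q ω) := by rw [mul_comm]; exact h5
  have hOpos : 0 < Nat.card (orbit Q ω) := by rw [hb]; positivity
  -- a common fixed point
  have hcommon : ∃ w ∈ orbit Q ω, ∀ i, g i • w = w := by
    by_contra hno
    -- every `F i` is nonempty
    have hne : ∀ i, Nonempty (F i) := by
      intro i
      by_contra h
      rw [not_nonempty_iff] at h
      have h1 : Nat.card (orbit Q ω) ≤ ∑ j ∈ Finset.univ.erase i, Nat.card (F j) := by
        have h2 : Nat.card (orbit Q ω) ≤ ∑ j, Nat.card (F j) := by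
          rw [← Nat.card_sigma]
          refine Nat.card_le_card_of_surjective (α := Σ j, F j) (fun v => ⟨v.2.1, v.2.2.1⟩) fun v => ?_
          obtain ⟨j, hj⟩ := hcov' v.1
          exact ⟨⟨j, v.1, v.2, hj⟩, rfl⟩
        rw [← Finset.add_sum_erase Finset.univ (fun j => Nat.card (F j)) (Finset.mem_univ i)] at h2
        have h3 : Nat.card (F i) = 0 := by
          rw [Nat.card_of_isEmpty]
        omega
      have h2 : (p + 1) * Nat.card (orbit Q ω) ≤ p * Nat.card (orbit Q ω) := by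
        calc (p + 1) * Nat.card (orbit Q ω) ≤ (p + 1) * ∑ j ∈ Finset.univ.erase i, Nat.card (F j) :=
            Nat.mul_le_mul_left _ h1
          _ = ∑ j ∈ Finset.univ.erase i, (p + 1) * Nat.card (F j) := by rw [Finset.mul_sum]
          _ ≤ ∑ _j ∈ Finset.univ.erase i, Nat.card (orbit Q ω) := Finset.sum_le_sum fun j _ => hbd j
          _ = p * Nat.card (orbit Q ω) := by
            rw [Finset.sum_const, Finset.card_erase_of_mem (Finset.mem_univ i), Finset.card_univ,
              ← Nat.card_eq_fintype_card, hι, smul_eq_mul, Nat.add_sub_cancel]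
      have h3 := Nat.le_of_mul_le_mul_right h2 hOpos
      omega
    obtain ⟨w₀, hw₀, hzw₀⟩ := hne none
    obtain ⟨w₁, hw₁, hdw₁⟩ := hne (some 1)
    change z • w₀ = w₀ at hzw₀
    have hdw : d • w₁ = w₁ := by
      change (d * ((1 : zpowers z) : G)) • w₁ = w₁ at hdw₁
      simpa using hdw₁
    have hdn : d ∈ normalizer (Q : Set G) := hQn d htd
    have hzn : z ∈ normalizer (Q : Set G) := hQn z htz
    have hdi : d⁻¹ ∈ normalizer (Q : Set G) := inv_mem hdn
    have hdiw : d⁻¹ • w₁ = w₁ := by rw [inv_smul_eq_iff, hdw]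
    let P : Ω → Prop := fun w => w ∈ orbit Q ω ∧ z • w = w
    have hP : ∀ w, P w ↔ P (d • w) := by
      intro w
      constructor
      · rintro ⟨h1, h2⟩
        refine ⟨smul_mem_orbit hdn hw₁ hdw h1, ?_⟩
        rw [smul_smul, ← hc, mul_smul, h2]
      · rintro ⟨h1, h2⟩
        refine ⟨?_, ?_⟩
        · have h3 := smul_mem_orbit hdi hw₁ hdiw h1
          rwa [inv_smul_smul] at h3
        · rw [smul_smul, ← hc, mul_smul] at h2
          exact smul_left_cancel d h2
    have hfinP : Finite {w // P w} := hFfin none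
    have hmod := Cfsg.Agent.H393.RC.modEq_fix hp hz hzn hzw₀
    rw [orbit_eq_iff.2 hw₀] at hmod
    have hnd : ¬ p ∣ Nat.card {w // P w} := by
      intro h
      have h1 : Nat.card (orbit Q ω) ≡ 0 [MOD p] := hmod.trans ((Nat.modEq_zero_iff_dvd).2 h)
      rw [hb, Nat.modEq_zero_iff_dvd] at h1
      exact hp2 ((Nat.prime_dvd_prime_iff_eq hp Nat.prime_two).1 (hp.dvd_of_dvd_pow h1))
    have := Fintype.ofFinite {w // P w}
    rw [Nat.card_eq_fintype_card] at hnd
    let σ : Equiv.Perm {w // P w} := (MulAction.toPerm d).subtypePerm fun w => (hP w).symm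
    have hσ : σ ^ p ^ 1 = 1 := by
      rw [pow_one]
      apply Equiv.ext
      intro w
      apply Subtype.ext
      have h1 : ∀ n : ℕ, (((σ ^ n) w : {w // P w}) : Ω) = d ^ n • (w : Ω) := by
        intro n
        induction n with
        | zero => simp
        | succ n ih =>
          rw [pow_succ', Equiv.Perm.mul_apply, pow_succ', mul_smul, ← ih]
          rfl
      rw [h1 p, hd, one_smul]
      rfl
    obtain ⟨w, hw⟩ := Equiv.Perm.exists_fixed_point_of_prime hnd hσ
    have hdw' : d • (w : Ω) = w := congrArg Subtype.val hw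
    apply hno
    refine ⟨w, w.2.1, ?_⟩
    rintro (_ | ⟨c, hc'⟩)
    · exact w.2.2
    · change (d * c) • (w : Ω) = w
      have h1 : c • (w : Ω) = w := (zpowers_le.2 (show z ∈ stabilizer G (w : Ω) from w.2.2)) hc'
      rw [mul_smul, h1, hdw']
  -- the final count
  obtain ⟨w, hwO, hw⟩ := hcommon
  let F' : ι → Type _ := fun i => {v : F i // v.1 ≠ w}
  have hcard : ∀ i, Nat.card (F' i) + 1 = Nat.card (F i) := by
    intro i
    have h1 : F i ≃ Option (F' i) :=
      { toFun := fun v => if h : v.1 = w then none else some ⟨v, h⟩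
        invFun := fun v => v.elim ⟨w, hwO, hw i⟩ fun u => u.1
        left_inv := fun v => by
          by_cases h : v.1 = w
          · simp only [h, dif_pos]
            exact Subtype.ext h.symm
          · simp only [h, dif_neg, not_false_eq_true]
            rfl
        right_inv := fun v => by
          rcases v with _ | ⟨u, hu⟩
          · simp
          · simp [hu] }
    rw [Nat.card_congr h1, Finite.card_option]
  have h1 : Nat.card {v : orbit Q ω // v.1 ≠ w} ≤ ∑ i, Nat.card (F' i) := by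
    rw [← Nat.card_sigma]
    refine Nat.card_le_card_of_surjective (α := Σ j, F' j) (fun v => ⟨⟨v.2.1.1, v.2.1.2.1⟩, v.2.2⟩) fun v => ?_
    obtain ⟨j, hj⟩ := hcov' v.1.1
    exact ⟨⟨j, ⟨v.1.1, v.1.2, hj⟩, v.2⟩, rfl⟩
  have h2 : Nat.card {v : orbit Q ω // v.1 ≠ w} + 1 = Nat.card (orbit Q ω) := by
    have h1 : orbit Q ω ≃ Option {v : orbit Q ω // v.1 ≠ w} :=
      { toFun := fun v => if h : v.1 = w then none else some ⟨v, h⟩
        invFun := fun v => v.elim ⟨w, hwO⟩ fun u => u.1
        left_inv := fun v => by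
          by_cases h : v.1 = w
          · simp only [h, dif_pos]
            exact Subtype.ext h.symm
          · simp only [h, dif_neg, not_false_eq_true]
            rfl
        right_inv := fun v => by
          rcases v with _ | ⟨u, hu⟩
          · simp
          · simp [hu] }
    rw [Nat.card_congr h1, Finite.card_option]
  have h3 : (∑ i, Nat.card (F' i)) + (p + 1) = ∑ i, Nat.card (F i) := by
    rw [← Finset.sum_congr rfl fun i _ => hcard i, Finset.sum_add_distrib, Finset.sum_const, Finset.card_univ,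
      ← Nat.card_eq_fintype_card, hι, smul_eq_mul, mul_one]
  have h4 : (p + 1) * ∑ i, Nat.card (F i) ≤ (p + 1) * Nat.card (orbit Q ω) := by
    calc (p + 1) * ∑ i, Nat.card (F i) = ∑ i, (p + 1) * Nat.card (F i) := by rw [Finset.mul_sum]
      _ ≤ ∑ _i : ι, Nat.card (orbit Q ω) := Finset.sum_le_sum fun i _ => hbd i
      _ = (p + 1) * Nat.card (orbit Q ω) := by
        rw [Finset.sum_const, Finset.card_univ, ← Nat.card_eq_fintype_card, hι, smul_eq_mul]
  have h5 := Nat.le_of_mul_le_mul_left h4 (Nat.succ_pos p)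
  have := hp.pos
  omega

end RankTwo

end Cfsg.Agent.H867.RC
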