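import Cfsg.Agent.H867.RC.Dual
import Cfsg.Agent.H867.RC.RankTwo
import Cfsg.Agent.H456.FourA

/-!
# Regular cycles (S3509): elements commuting with no involution (helper867, the short form is by helper349)

* `pair_p` : `u, v` of order `p`, commuting, both not `Ev`: not every point is fixed by `u` or `v`;
* **`nonEv_pair`** : `x` of order `p`, `y` of prime order `q ≠ p` commuting with `x`: not every point is fixed by `x` or `y`.
-/

set_option autoImplicit false

namespace Cfsg.Agent.H867.RC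

open MulAction Subgroup

section Coprime

open scoped Pointwise

variable {G : Type*} [Group G] [Finite G]

/-- a noncyclic abelian `p`-group `⟨z, e⟩` acting on a `p'`-group `A ≠ 1` -/
theorem exists_fixed_elt {p : ℕ} (hp : p.Prime) {z e : G} (hz : z ^ p = 1) (he : e ^ p = 1) (hez : e * z = z * e)
    (hz1 : z ≠ 1) (hne : e ∉ zpowers z) {A : Subgroup G} (hA1 : A ≠ ⊥) (hAp : ∀ a ∈ A, a ^ p = 1 → a = 1)
    (hzA : z ∈ normalizer (A : Set G)) (heA : e ∈ normalizer (A : Set G)) :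
    ∃ g ∈ closure ({z, e} : Set G), g ≠ 1 ∧ g ^ p = 1 ∧ ∃ (q : ℕ) (a : G), q.Prime ∧ q ≠ p ∧ a ∈ A ∧ a ^ q = 1 ∧ a ≠ 1 ∧
      g * a = a * g := by
  classical
  have hpf : Fact p.Prime := ⟨hp⟩
  set E : Subgroup G := closure ({z, e} : Set G) with hE
  have hzE : z ∈ E := subset_closure (by simp)
  have heE : e ∈ E := subset_closure (by simp)
  -- `E` is abelian of exponent `p`
  have hcomm0 : ∀ a ∈ ({z, e} : Set G), ∀ b ∈ ({z, e} : Set G), a * b = b * a := by
    rintro a (rfl | rfl) b (rfl | rfl)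
    · rfl
    · exact hez.symm
    · exact hez
    · rfl
  have hcomm : ∀ a ∈ E, ∀ b ∈ E, a * b = b * a := by
    have h1 : E ≤ centralizer ({z, e} : Set G) := by
      rw [hE, closure_le]
      intro a ha
      rw [SetLike.mem_coe, mem_centralizer_iff]
      intro b hb
      exact hcomm0 b hb a ha
    have h2 : ({z, e} : Set G) ⊆ centralizer (E : Set G) := by
      intro a ha
      rw [SetLike.mem_coe, mem_centralizer_iff]
      intro b hb
      exact ((mem_centralizer_iff.1 (h1 hb)) a ha).symm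
    have h3 : E ≤ centralizer (E : Set G) := by
      rw [hE, closure_le, ← hE]
      exact h2
    intro a ha b hb
    exact (mem_centralizer_iff.1 (h3 hb)) a ha
  have hexp : ∀ a ∈ E, a ^ p = 1 := by
    intro a ha
    refine closure_induction (p := fun a _ => a ^ p = 1) ?_ ?_ ?_ ?_ ha
    · rintro a (rfl | rfl)
      · exact hz
      · exact he
    · exact one_pow _
    · intro a b ha hb h1 h2
      rw [(show Commute a b from hcomm a ha b hb).mul_pow, h1, h2, one_mul]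
    · intro a _ h1
      rw [inv_pow, h1, inv_one]
  have hEn : E ≤ normalizer (A : Set G) := by
    rw [hE, closure_le]
    rintro a (rfl | rfl)
    · exact hzA
    · exact heA
  have hEp : IsPGroup p E := fun a => ⟨1, Subtype.ext (by simpa using hexp a a.2)⟩
  have hEc : ¬ IsCyclic E := by
    intro hcyc
    obtain ⟨⟨g, hg⟩, hgen⟩ := hcyc.exists_generator
    have h1 : (⟨z, hzE⟩ : E) ∈ zpowers (⟨g, hg⟩ : E) := hgen _
    have h2 : (⟨e, heE⟩ : E) ∈ zpowers (⟨g, hg⟩ : E) := hgen _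
    have h1' : z ∈ zpowers g := by
      obtain ⟨k, hk⟩ := mem_zpowers_iff.1 h1
      exact ⟨k, by simpa using congrArg Subtype.val hk⟩
    have h2' : e ∈ zpowers g := by
      obtain ⟨k, hk⟩ := mem_zpowers_iff.1 h2
      exact ⟨k, by simpa using congrArg Subtype.val hk⟩
    have hg1 : g ≠ 1 := by
      rintro rfl
      rw [zpowers_one_eq_bot, mem_bot] at h1'
      exact hz1 h1'
    have hcard : Nat.card (zpowers g) = p := by rw [Nat.card_zpowers, orderOf_eq_prime (hexp g hg) hg1]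
    have h3 : (⟨g, mem_zpowers g⟩ : zpowers g) ∈ zpowers (⟨z, h1'⟩ : zpowers g) :=
      mem_zpowers_of_prime_card hcard (fun h => hz1 (congrArg Subtype.val h))
    have h4 : g ∈ zpowers z := by
      obtain ⟨k, hk⟩ := mem_zpowers_iff.1 h3
      exact ⟨k, by simpa using congrArg Subtype.val hk⟩
    exact hne ((zpowers_le.2 h4) h2')
  -- a Sylow subgroup of `A` normalised by `E`
  have hAcard : Nat.card A ≠ 1 := fun h => hA1 (card_eq_one.1 h)
  obtain ⟨q, hq, hqA⟩ := Nat.exists_prime_and_dvd hAcard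
  have hqf : Fact q.Prime := ⟨hq⟩
  have hqp : q ≠ p := by
    rintro rfl
    obtain ⟨a, ha⟩ := exists_prime_orderOf_dvd_card' q hqA
    have h1 : a ^ q = 1 := by rw [← ha]; exact pow_orderOf_eq_one a
    have h2 := hAp a a.2 (by simpa using congrArg Subtype.val h1)
    have h3 : a = 1 := Subtype.ext h2
    rw [h3, orderOf_one] at ha
    exact hq.one_lt.ne ha
  have hpA : ¬ p ∣ Nat.card A := by
    intro h
    obtain ⟨a, ha⟩ := exists_prime_orderOf_dvd_card' p h
    have h1 : a ^ p = 1 := by rw [← ha]; exact pow_orderOf_eq_one a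
    have h2 := hAp a a.2 (by simpa using congrArg Subtype.val h1)
    have h3 : a = 1 := Subtype.ext h2
    rw [h3, orderOf_one] at ha
    exact hp.one_lt.ne ha
  obtain ⟨X, hX⟩ : ∃ X : Sylow q ↥A, ∀ g ∈ E, ∀ x ∈ (X : Subgroup ↥A).map A.subtype,
      g * x * g⁻¹ ∈ (X : Subgroup ↥A).map A.subtype := by
    set φ : ↥E →* MulAut ↥A := A.normalizerMonoidHom.comp (Subgroup.inclusion hEn) with hφ
    have hR : IsPGroup p φ.range := hEp.of_surjective φ.rangeRestrict φ.rangeRestrict_surjective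
    have hS : ¬ p ∣ Nat.card (Sylow q ↥A) := by
      intro h
      obtain ⟨X⟩ : Nonempty (Sylow q ↥A) := inferInstance
      exact hpA (h.trans ((X.card_dvd_index).trans (X : Subgroup ↥A).index_dvd_card))
    obtain ⟨X, hX⟩ := hR.nonempty_fixed_point_of_prime_not_dvd_card (Sylow q ↥A) hS
    refine ⟨X, fun g hg x hx => ?_⟩
    have h1 : (⟨φ ⟨g, hg⟩, ⟨g, hg⟩, rfl⟩ : φ.range) • X = X := hX _
    have h2 : (φ ⟨g, hg⟩) • (X : Subgroup ↥A) = (X : Subgroup ↥A) := congrArg Sylow.toSubgroup h1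
    have h3 : (X : Subgroup ↥A).map (φ ⟨g, hg⟩).toMonoidHom = (X : Subgroup ↥A) := h2
    obtain ⟨y, hy, rfl⟩ := hx
    have h4 : (φ ⟨g, hg⟩) y ∈ (X : Subgroup ↥A) := by
      rw [← h3]
      exact ⟨y, hy, rfl⟩
    exact ⟨_, h4, rfl⟩
  set Xs : Subgroup G := (X : Subgroup ↥A).map A.subtype with hXs
  have hXsA : Xs ≤ A := map_subtype_le _
  have hXq : IsPGroup q Xs := X.isPGroup'.map _
  have hXs1 : Nontrivial Xs := by
    rw [Subgroup.nontrivial_iff_ne_bot]
    intro h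
    have h1 := X.dvd_card_of_dvd_card hqA
    have h2 : Nat.card Xs = Nat.card X := Subgroup.card_map_of_injective A.subtype_injective
    rw [← h2, h, Subgroup.card_bot, Nat.dvd_one] at h1
    exact hq.one_lt.ne' h1
  have hcen := hXq.center_nontrivial
  set U : Subgroup G := (center Xs).map Xs.subtype with hU
  have hUX : U ≤ Xs := map_subtype_le _
  have hUc : ∀ u ∈ U, ∀ x ∈ Xs, u * x = x * u := by
    rintro _ ⟨u, hu, rfl⟩ x hx
    exact congrArg Subtype.val ((mem_center_iff.1 hu ⟨x, hx⟩).symm)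
  have hUmem : ∀ u ∈ Xs, (∀ x ∈ Xs, u * x = x * u) → u ∈ U := by
    intro u hu h
    refine ⟨⟨u, hu⟩, ?_, rfl⟩
    rw [SetLike.mem_coe, mem_center_iff]
    intro x
    exact Subtype.ext (h x x.2).symm
  have hU1 : U ≠ ⊥ := by
    intro h
    have h1 : center Xs = ⊥ := (map_eq_bot_iff_of_injective _ Xs.subtype_injective).1 h
    exact (Subgroup.nontrivial_iff_ne_bot _).1 hcen h1
  have hEU : ∀ g ∈ E, ∀ u ∈ U, MulAut.conj g u ∈ U := by
    intro g hg u hu
    change g * u * g⁻¹ ∈ U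
    refine hUmem _ (hX g hg u (hUX hu)) fun x hx => ?_
    have h1 : g⁻¹ * x * g ∈ Xs := by
      have := hX g⁻¹ (inv_mem hg) x hx
      rwa [inv_inv] at this
    have h2 := hUc u hu _ h1
    calc g * u * g⁻¹ * x = g * (u * (g⁻¹ * x * g)) * g⁻¹ := by group
      _ = x * (g * u * g⁻¹) := by rw [h2]; group
  obtain ⟨g, hg, hg1, u, hu, hu1, hgu⟩ := Cfsg.Agent.H456.exists_fixed_of_not_cyclic (MulAut.conj : G →* MulAut G) U
    (fun a ha b hb => hUc a ha b (hUX hb)) hU1 E hcomm hEc hEU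
  change g * u * g⁻¹ = u at hgu
  have hgu' : g * u = u * g := by
    calc g * u = (g * u * g⁻¹) * g := by group
      _ = u * g := by rw [hgu]
  obtain ⟨k, hk⟩ := (IsPGroup.iff_orderOf.1 hXq) ⟨u, hUX hu⟩
  rw [Subgroup.orderOf_mk] at hk
  have hk0 : k ≠ 0 := by
    rintro rfl
    rw [pow_zero] at hk
    exact hu1 (orderOf_eq_one_iff.1 hk)
  obtain ⟨m, rfl⟩ : ∃ m, k = m + 1 := ⟨k - 1, by omega⟩
  refine ⟨g, hg, hg1, hexp g hg, q, u ^ q ^ m, hq, hqp, pow_mem (hXsA (hUX hu)) _, ?_, fun h => ?_, ?_⟩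
  · rw [← pow_mul, ← pow_succ, ← hk, pow_orderOf_eq_one]
  · have h3 := orderOf_dvd_of_pow_eq_one h
    rw [hk] at h3
    have h4 := (Nat.pow_dvd_pow_iff_le_right hq.one_lt).1 h3
    omega
  · exact ((show Commute g u from hgu').pow_right _).eq

end Coprime

section Main

variable {G Ω : Type*} [Group G] [MulAction G Ω]

/-- an element `z` of order `p` such that every `g ∈ C(z)` commuting with no involution is conjugate in `C(z)` to all `g z^j`,
and every element of order `p` of `C(z)` commutes with a noncyclic `⟨z, e⟩` all of whose elements commute with involutions -/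
structure ZData (p : ℕ) (z : G) : Prop where
  zp : z ^ p = 1
  z1 : z ≠ 1
  ev : Ev z
  dich : ∀ g, g * z = z * g → g ^ p = 1 → ¬ Ev g → ∀ c ∈ zpowers z, ∃ h, h * z = z * h ∧ h * g * h⁻¹ = g * c
  rk : ∀ x, x ^ p = 1 → x * z = z * x → ∃ e, e ^ p = 1 ∧ e ∉ zpowers z ∧ e * z = z * e ∧ e * x = x * e ∧
    ∀ c ∈ zpowers z, Ev (e * c)

/-- `g` fixes at most `1/p` of the points moved by `z` -/
theorem ZData.card_fix [Finite Ω] {p : ℕ} (hp : p.Prime) {z : G} (D : ZData p z) {g : G} (hg : g * z = z * g)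
    (hgp : g ^ p = 1) (hne : ¬ Ev g) :
    p * Nat.card {w : Ω // z • w ≠ w ∧ g • w = w} ≤ Nat.card {w : Ω // z • w ≠ w} := by
  classical
  have hpf : Fact p.Prime := ⟨hp⟩
  have hcard : Nat.card (zpowers z) = p := by rw [Nat.card_zpowers, orderOf_eq_prime D.zp D.z1]
  choose h hh using fun c : zpowers z => D.dich g hg hgp hne c c.2
  have e1 : p * Nat.card {w : Ω // z • w ≠ w ∧ g • w = w} =
      Nat.card (zpowers z × {w : Ω // z • w ≠ w ∧ g • w = w}) := by rw [Nat.card_prod, hcard]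
  rw [e1]
  have hmv : ∀ (c : zpowers z) (w : Ω), z • w ≠ w → z • (h c • w) ≠ h c • w := by
    intro c w hw h1
    apply hw
    rw [smul_smul, ← (hh c).1, mul_smul] at h1
    exact smul_left_cancel _ h1
  have hfx : ∀ (c : zpowers z) (w : Ω), g • w = w → (g * c) • (h c • w) = h c • w := by
    intro c w hw
    rw [← (hh c).2, smul_smul]
    have e2 : h c * g * (h c)⁻¹ * h c = h c * g := by group
    rw [e2, mul_smul, hw]
  refine Nat.card_le_card_of_injective (fun v => ⟨h v.1 • (v.2 : Ω), hmv v.1 v.2 v.2.2.1⟩) ?_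
  rintro ⟨c, w, hw1, hw2⟩ ⟨c', w', hw1', hw2'⟩ hcc
  have h1 : h c • w = h c' • w' := congrArg Subtype.val hcc
  have hceq : c = c' := by
    by_contra hne'
    have h2 := hfx c w hw2
    have h3 := hfx c' w' hw2'
    rw [← h1] at h3
    have h4 : (c : G)⁻¹ * c' ∈ stabilizer G (h c • w) := by
      have e2 : (c : G)⁻¹ * c' = (g * c)⁻¹ * (g * c') := by group
      rw [e2]
      exact mul_mem (inv_mem (show g * c ∈ stabilizer G _ from h2)) (show g * c' ∈ stabilizer G _ from h3)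
    have h5 : (⟨z, mem_zpowers z⟩ : zpowers z) ∈ zpowers (c⁻¹ * c') :=
      mem_zpowers_of_prime_card hcard (fun h => hne' (inv_mul_eq_one.1 h))
    have h6 : z ∈ zpowers ((c : G)⁻¹ * c') := by
      obtain ⟨k, hk⟩ := mem_zpowers_iff.1 h5
      exact ⟨k, by simpa using congrArg Subtype.val hk⟩
    exact hmv c w hw1 ((zpowers_le.2 h4) h6)
  subst hceq
  have h2 : w = w' := smul_left_cancel _ h1
  subst h2
  rfl

/-- **two commuting elements of order `p`, both not `Ev`** -/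
theorem pair_p [Finite Ω] (hf : ∀ g : G, (∀ ω : Ω, g • ω = ω) → g = 1) {p : ℕ} (hp : p.Prime) (hp2 : p ≠ 2) {z : G}
    (D : ZData p z) {u v : G} (hu : u * z = z * u) (hv : v * z = z * v) (hup : u ^ p = 1) (hvp : v ^ p = 1)
    (hune : ¬ Ev u) (hvne : ¬ Ev v) (h : CP Ω u v) : False := by
  classical
  have h1 := D.card_fix (Ω := Ω) hp hu hup hune
  have h2 := D.card_fix (Ω := Ω) hp hv hvp hvne
  have h3 : 0 < Nat.card {w : Ω // z • w ≠ w} := by
    obtain ⟨ω, hω⟩ : ∃ ω : Ω, z • ω ≠ ω := by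
      by_contra hcon
      push Not at hcon
      exact D.z1 (hf z hcon)
    have : Nonempty {w : Ω // z • w ≠ w} := ⟨⟨ω, hω⟩⟩
    exact Nat.card_pos
  have h4 : Nat.card {w : Ω // z • w ≠ w} ≤
      Nat.card {w : Ω // z • w ≠ w ∧ u • w = w} + Nat.card {w : Ω // z • w ≠ w ∧ v • w = w} := by
    rw [← Nat.card_sum]
    refine Nat.card_le_card_of_surjective
      (α := {w : Ω // z • w ≠ w ∧ u • w = w} ⊕ {w : Ω // z • w ≠ w ∧ v • w = w})
      (fun a => a.elim (fun w => ⟨w.1, w.2.1⟩) fun w => ⟨w.1, w.2.1⟩) fun w => ?_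
    rcases h w.1 with h5 | h5
    · exact ⟨Sum.inl ⟨w.1, w.2, h5⟩, rfl⟩
    · exact ⟨Sum.inr ⟨w.1, w.2, h5⟩, rfl⟩
  have hp3 : 3 ≤ p := by
    have := hp.two_le
    omega
  have h5 : p * Nat.card {w : Ω // z • w ≠ w} ≤ 2 * Nat.card {w : Ω // z • w ≠ w} := by
    calc p * Nat.card {w : Ω // z • w ≠ w} ≤
        p * (Nat.card {w : Ω // z • w ≠ w ∧ u • w = w} + Nat.card {w : Ω // z • w ≠ w ∧ v • w = w}) :=
          Nat.mul_le_mul_left _ h4
      _ ≤ 2 * Nat.card {w : Ω // z • w ≠ w} := by rw [mul_add]; omega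
  have h6 := Nat.le_of_mul_le_mul_right h5 h3
  omega

/-- elements of `⟨z, e⟩` -/
theorem mem_pair {p : ℕ} (hp : p.Prime) {z e : G} (hz : z ^ p = 1) (he : e ^ p = 1) (hez : e * z = z * e) {g : G}
    (hg : g ∈ closure ({z, e} : Set G)) (hg1 : g ≠ 1) : z ∈ zpowers g ∨ ∃ c ∈ zpowers z, e * c ∈ zpowers g := by
  have hpf : Fact p.Prime := ⟨hp⟩
  have hrep : ∃ i : ℤ, ∃ j : ℤ, g = e ^ i * z ^ j := by
    have hc : ∀ i j : ℤ, z ^ j * e ^ i = e ^ i * z ^ j := fun i j =>
      (((show Commute e z from hez).zpow_left i).zpow_right j).eq.symm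
    refine closure_induction (p := fun g _ => ∃ i : ℤ, ∃ j : ℤ, g = e ^ i * z ^ j) ?_ ?_ ?_ ?_ hg
    · rintro g (rfl | rfl)
      · exact ⟨0, 1, by simp⟩
      · exact ⟨1, 0, by simp⟩
    · exact ⟨0, 0, by simp⟩
    · rintro _ _ _ _ ⟨i, j, rfl⟩ ⟨k, l, rfl⟩
      refine ⟨i + k, j + l, ?_⟩
      rw [zpow_add, zpow_add]
      calc e ^ i * z ^ j * (e ^ k * z ^ l) = e ^ i * (z ^ j * e ^ k) * z ^ l := by group
        _ = e ^ i * e ^ k * (z ^ j * z ^ l) := by rw [hc]; group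
    · rintro _ _ ⟨i, j, rfl⟩
      refine ⟨-i, -j, ?_⟩
      rw [mul_inv_rev, zpow_neg, zpow_neg, ← zpow_neg, ← zpow_neg, hc]
  obtain ⟨i, j, rfl⟩ := hrep
  by_cases hi : e ^ i = 1
  · left
    rw [hi, one_mul] at hg1 ⊢
    have hz1 : z ≠ 1 := by
      rintro rfl
      exact hg1 (one_zpow _)
    have hcard : Nat.card (zpowers z) = p := by rw [Nat.card_zpowers, orderOf_eq_prime hz hz1]
    have h3 : (⟨z, mem_zpowers z⟩ : zpowers z) ∈ zpowers (⟨z ^ j, zpow_mem (mem_zpowers z) j⟩ : zpowers z) :=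
      mem_zpowers_of_prime_card hcard (fun h => hg1 (congrArg Subtype.val h))
    obtain ⟨k, hk⟩ := mem_zpowers_iff.1 h3
    exact ⟨k, by simpa using congrArg Subtype.val hk⟩
  · right
    have he1 : e ≠ 1 := by
      rintro rfl
      exact hi (one_zpow _)
    have hcard : Nat.card (zpowers e) = p := by rw [Nat.card_zpowers, orderOf_eq_prime he he1]
    have h3 : (⟨e, mem_zpowers e⟩ : zpowers e) ∈ zpowers (⟨e ^ i, zpow_mem (mem_zpowers e) i⟩ : zpowers e) :=
      mem_zpowers_of_prime_card hcard (fun h => hi (congrArg Subtype.val h))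
    obtain ⟨k, hk⟩ := mem_zpowers_iff.1 h3
    have hk' : (e ^ i) ^ k = e := by simpa using congrArg Subtype.val hk
    refine ⟨(z ^ j) ^ k, zpow_mem (zpow_mem (mem_zpowers z) _) _, k, ?_⟩
    change (e ^ i * z ^ j) ^ k = _
    rw [(show Commute (e ^ i) (z ^ j) from ((show Commute e z from hez).zpow_left i).zpow_right j).mul_zpow, hk']

/-- **pairs with an element of order `p`** -/
theorem nonEv_pair [Finite G] [Finite Ω] (hf : ∀ g : G, (∀ ω : Ω, g • ω = ω) → g = 1) {p : ℕ} (hp : p.Prime) (hp2 : p ≠ 2)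
    (hS : ∀ P : Sylow p G, ∃ z, (∀ g ∈ P, g * z = z * g) ∧ ZData p z)
    (hE : ∀ a t : G, a ^ p = 1 → a ≠ 1 → t * t = 1 → t ≠ 1 → a * t = t * a → ¬ CP Ω a t)
    (hD : ∀ (q : ℕ) (a v e : G), q.Prime → q ≠ 2 → q ≠ p → a ^ p = 1 → a ≠ 1 → v ^ q = 1 → v ≠ 1 → a * v = v * a →
      e ^ p = 1 → e ≠ 1 → Ev e → e * v = v * e → ¬ CP Ω a v)
    (hP : ∀ e v : G, e ^ p = 1 → e ≠ 1 → v ^ p = 1 → e * v = v * e → Ev e → ¬ Ev v → ¬ CP Ω e v)
    {x y : G} {q : ℕ} (hx : x ^ p = 1) (hx1 : x ≠ 1) (hxy : x * y = y * x) (hy : y ^ q = 1) (hy1 : y ≠ 1) (hq : q.Prime)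
    (hqp : q ≠ p) : ¬ CP Ω x y := by
  classical
  have hpf : Fact p.Prime := ⟨hp⟩
  intro hcp
  by_cases hxe : Ev x
  · by_cases hq2 : q = 2
    · subst hq2
      exact hE x y hx hx1 (by rw [← pow_two, hy]) hy1 hxy hcp
    · exact hD q x y x hq hq2 hqp hx hx1 hy hy1 hxy hx hx1 hxe hxy hcp
  -- the pointwise stabilizer of the points moved by `x`, in `C(x)`
  let A : Subgroup G :=
    { carrier := {a | a * x = x * a ∧ ∀ ω : Ω, x • ω ≠ ω → a • ω = ω}
      mul_mem' := by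
        rintro a b ⟨ha, ha'⟩ ⟨hb, hb'⟩
        refine ⟨by rw [mul_assoc, hb, ← mul_assoc, ha, mul_assoc], fun ω hω => ?_⟩
        rw [mul_smul, hb' ω hω, ha' ω hω]
      one_mem' := ⟨by simp, fun ω _ => one_smul _ _⟩
      inv_mem' := by
        rintro a ⟨ha, ha'⟩
        refine ⟨?_, fun ω hω => by rw [inv_smul_eq_iff, ha' ω hω]⟩
        calc a⁻¹ * x = a⁻¹ * (x * a) * a⁻¹ := by group
          _ = x * a⁻¹ := by rw [← ha]; group }
  have hAcp : ∀ a ∈ A, CP Ω x a := by
    intro a ha ω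
    by_cases h : x • ω = ω
    · exact Or.inl h
    · exact Or.inr (ha.2 ω h)
  have hyA : y ∈ A := ⟨hxy.symm, fun ω hω => (hcp ω).resolve_left hω⟩
  have hA1 : A ≠ ⊥ := by
    intro h
    rw [h, mem_bot] at hyA
    exact hy1 hyA
  have hAn : ∀ c, c * x = x * c → c ∈ normalizer (A : Set G) := by
    have key : ∀ c, c * x = x * c → ∀ a ∈ A, c * a * c⁻¹ ∈ A := by
      rintro c hc a ⟨ha, ha'⟩
      have hc' : c⁻¹ * x = x * c⁻¹ := by
        calc c⁻¹ * x = c⁻¹ * (x * c) * c⁻¹ := by group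
          _ = x * c⁻¹ := by rw [← hc]; group
      refine ⟨?_, fun ω hω => ?_⟩
      · calc c * a * c⁻¹ * x = c * a * (c⁻¹ * x) := by group
          _ = c * (a * x) * c⁻¹ := by rw [hc']; group
          _ = (c * x) * a * c⁻¹ := by rw [ha]; group
          _ = x * (c * a * c⁻¹) := by rw [hc]; group
      · have h1 : x • c⁻¹ • ω ≠ c⁻¹ • ω := by
          intro h2
          apply hω
          rw [smul_smul, ← hc', mul_smul] at h2
          exact smul_left_cancel _ h2
        rw [mul_smul, mul_smul, ha' _ h1, smul_inv_smul]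
    intro c hc
    rw [mem_normalizer_iff]
    intro a
    refine ⟨fun ha => key c hc a ha, fun ha => ?_⟩
    have hc' : c⁻¹ * x = x * c⁻¹ := by
      calc c⁻¹ * x = c⁻¹ * (x * c) * c⁻¹ := by group
        _ = x * c⁻¹ := by rw [← hc]; group
    have h1 := key c⁻¹ hc' _ ha
    have e1 : c⁻¹ * (c * a * c⁻¹) * c⁻¹⁻¹ = a := by group
    rwa [e1] at h1
  have hAp : ∀ a ∈ A, a ^ p = 1 → a = 1 := by
    intro a ha hap
    by_contra ha1
    have hcpa := hAcp a ha
    by_cases hae : Ev a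
    · exact hP a x hap ha1 hx ha.1 hae hxe hcpa.symm
    -- a Sylow subgroup containing `x` and `a`
    have hcomm : ∀ g ∈ closure ({x, a} : Set G), g ^ p = 1 := by
      have h0 : ∀ g ∈ closure ({x, a} : Set G), ∃ i j : ℤ, g = x ^ i * a ^ j := by
        intro g hg
        have hc : ∀ i j : ℤ, a ^ j * x ^ i = x ^ i * a ^ j := fun i j =>
          (((show Commute x a from ha.1.symm).zpow_left i).zpow_right j).eq.symm
        refine closure_induction (p := fun g _ => ∃ i j : ℤ, g = x ^ i * a ^ j) ?_ ?_ ?_ ?_ hg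
        · rintro g (rfl | rfl)
          · exact ⟨1, 0, by simp⟩
          · exact ⟨0, 1, by simp⟩
        · exact ⟨0, 0, by simp⟩
        · rintro _ _ _ _ ⟨i, j, rfl⟩ ⟨k, l, rfl⟩
          refine ⟨i + k, j + l, ?_⟩
          rw [zpow_add, zpow_add]
          calc x ^ i * a ^ j * (x ^ k * a ^ l) = x ^ i * (a ^ j * x ^ k) * a ^ l := by group
            _ = x ^ i * x ^ k * (a ^ j * a ^ l) := by rw [hc]; group
        · rintro _ _ ⟨i, j, rfl⟩
          refine ⟨-i, -j, ?_⟩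
          rw [mul_inv_rev, ← zpow_neg, ← zpow_neg, hc]
      intro g hg
      obtain ⟨i, j, rfl⟩ := h0 g hg
      rw [(show Commute (x ^ i) (a ^ j) from
        ((show Commute x a from ha.1.symm).zpow_left i).zpow_right j).mul_pow]
      rw [← zpow_natCast, ← zpow_mul, mul_comm i, zpow_mul, zpow_natCast, hx, one_zpow,
        ← zpow_natCast, ← zpow_mul, mul_comm j, zpow_mul, zpow_natCast, hap, one_zpow, one_mul]
    have hpg : IsPGroup p (closure ({x, a} : Set G)) := fun g => ⟨1, Subtype.ext (by simpa using hcomm g g.2)⟩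
    obtain ⟨P, hP'⟩ := hpg.exists_le_sylow
    obtain ⟨z, hzP, D⟩ := hS P
    exact pair_p hf hp hp2 D (hzP x (hP' (subset_closure (by simp)))) (hzP a (hP' (subset_closure (by simp)))) hx hap hxe hae
      hcpa
  -- the four-group
  have hpx : IsPGroup p (zpowers x) := by
    intro g
    refine ⟨1, Subtype.ext ?_⟩
    obtain ⟨k, hk⟩ := mem_zpowers_iff.1 g.2
    rw [pow_one, coe_pow, ← hk, ← zpow_natCast, ← zpow_mul, mul_comm, zpow_mul, zpow_natCast, hx, one_zpow]
    rfl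
  obtain ⟨P, hP'⟩ := hpx.exists_le_sylow
  obtain ⟨z, hzP, D⟩ := hS P
  have hxz : x * z = z * x := hzP x (hP' (mem_zpowers x))
  obtain ⟨e, hep, hez', hez, hex, hev⟩ := D.rk x hx hxz
  obtain ⟨g, hg, hg1, hgp, r, a, hr, hrp, haA, har, ha1, hga⟩ :=
    exists_fixed_elt hp D.zp hep hez D.z1 hez' hA1 hAp (hAn z hxz.symm) (hAn e hex)
  have hcom : ∀ b ∈ zpowers g, b * a = a * b := by
    intro b hb
    obtain ⟨k, rfl⟩ := mem_zpowers_iff.1 hb
    exact ((show Commute g a from hga).zpow_left k).eq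
  obtain ⟨e', he'p, he'1, he'e, he'a⟩ : ∃ e' : G, e' ^ p = 1 ∧ e' ≠ 1 ∧ Ev e' ∧ e' * a = a * e' := by
    rcases mem_pair hp D.zp hep hez hg hg1 with h | ⟨c, hc, h⟩
    · exact ⟨z, D.zp, D.z1, D.ev, hcom z h⟩
    · refine ⟨e * c, ?_, ?_, hev c hc, hcom _ h⟩
      · obtain ⟨k, rfl⟩ := mem_zpowers_iff.1 hc
        rw [(show Commute e (z ^ k) from (show Commute e z from hez).zpow_right k).mul_pow, hep, one_mul,
          ← zpow_natCast, ← zpow_mul, mul_comm, zpow_mul, zpow_natCast, D.zp, one_zpow]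
      · intro h1
        apply hez'
        rw [eq_inv_of_mul_eq_one_left h1]
        exact inv_mem hc
  by_cases hr2 : r = 2
  · subst hr2
    exact hE x a hx hx1 (by rw [← pow_two, har]) ha1 haA.1.symm (hAcp a haA)
  · exact hD r x a e' hr hr2 hrp hx hx1 har ha1 haA.1.symm he'p he'1 he'e he'a (hAcp a haA)

end Main

end Cfsg.Agent.H867.RC
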